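import Mathlib
import Cfsg.Agent.Lib.Helper16.ZFpf
import Cfsg.Agent.Lib.Helper16.ZKind

/-!
# Traces of elements of order 4, 3, 6, 5, 10 under a fixed-point-free ring representation
(helper71, for helper16's Zassenhaus project: lemma D-KIND)
-/

set_option autoImplicit false

namespace Cfsg.Agent.Lib.Helper71.Zas

open Cfsg.Agent.Lib.Helper16.Zas

variable {G : Type*} [Group G] {R : Type*} [Ring R] {ρ : G →* R}

theorem map_mul_inv (ρ : G →* R) (g : G) : ρ g * ρ g⁻¹ = 1 := by
  rw [← map_mul, mul_inv_cancel, map_one]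

theorem map_inv_mul (ρ : G →* R) (g : G) : ρ g⁻¹ * ρ g = 1 := by
  rw [← map_mul, inv_mul_cancel, map_one]

/-- elements of order `5`: the trace is a root of `t² + t - 1` and `5` is a unit. -/
theorem five (h : Fpf ρ) {g : G} (hg : g ≠ 1) (hg5 : g ^ 5 = 1) :
    IsUnit (5 : R) ∧ (ρ g + ρ g⁻¹) * (ρ g + ρ g⁻¹) + (ρ g + ρ g⁻¹) - 1 = 0 := by
  have hgeo := h.geom_zero hg hg5
  have hgeo' : 1 + ρ g + ρ g ^ 2 + ρ g ^ 3 + ρ g ^ 4 = 0 := by
    rw [← hgeo]
    simp [Finset.sum_range_succ]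
  have hF := map_mul_inv ρ g
  have hF' := map_inv_mul ρ g
  have hord : ∀ k : ℕ, 0 < k → k < 5 → g ^ k ≠ 1 := by
    intro k hk0 hk5 hk
    have h1 : orderOf g ∣ 5 := orderOf_dvd_of_pow_eq_one hg5
    have h2 : orderOf g ∣ k := orderOf_dvd_of_pow_eq_one hk
    have h3 : orderOf g = 1 ∨ orderOf g = 5 := (Nat.dvd_prime (by norm_num)).mp h1
    rcases h3 with h3 | h3
    · exact hg (orderOf_eq_one_iff.mp h3)
    · rw [h3] at h2
      have := Nat.le_of_dvd hk0 h2
      omega
  constructor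
  · have u1 := h.unit (g ^ 1) (hord 1 (by norm_num) (by norm_num))
    have u2 := h.unit (g ^ 2) (hord 2 (by norm_num) (by norm_num))
    have u3 := h.unit (g ^ 3) (hord 3 (by norm_num) (by norm_num))
    have u4 := h.unit (g ^ 4) (hord 4 (by norm_num) (by norm_num))
    rw [map_pow] at u1 u2 u3 u4
    have hprod := ((u1.mul u2).mul u3).mul u4
    have h5 : (ρ g ^ 1 - 1) * (ρ g ^ 2 - 1) * (ρ g ^ 3 - 1) * (ρ g ^ 4 - 1) = 5 := by
      have key : ((Polynomial.X ^ 1 - 1) * (Polynomial.X ^ 2 - 1) * (Polynomial.X ^ 3 - 1) *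
          (Polynomial.X ^ 4 - 1) - 5 : Polynomial ℤ) =
          (1 + Polynomial.X + Polynomial.X ^ 2 + Polynomial.X ^ 3 + Polynomial.X ^ 4) *
            (Polynomial.X ^ 6 - 2 * Polynomial.X ^ 5 + Polynomial.X ^ 3 + 3 * Polynomial.X - 4) := by
        ring
      have key2 := congrArg (Polynomial.aeval (ρ g)) key
      simp only [map_sub, map_mul, map_add, map_pow, Polynomial.aeval_X, map_one, map_ofNat]
        at key2
      rw [hgeo', zero_mul] at key2
      exact sub_eq_zero.mp key2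
    rw [h5] at hprod
    exact hprod
  · have htF : (ρ g + ρ g⁻¹) * ρ g = ρ g * ρ g + 1 := by rw [add_mul, hF']
    have key : ((ρ g + ρ g⁻¹) * (ρ g + ρ g⁻¹) + (ρ g + ρ g⁻¹) - 1) * (ρ g * ρ g) =
        1 + ρ g + ρ g ^ 2 + ρ g ^ 3 + ρ g ^ 4 := by
      have e1 : (ρ g + ρ g⁻¹) * (ρ g + ρ g⁻¹) * (ρ g * ρ g) =
          (ρ g * ρ g + 1) * (ρ g * ρ g + 1) := by
        calc (ρ g + ρ g⁻¹) * (ρ g + ρ g⁻¹) * (ρ g * ρ g)
            = (ρ g + ρ g⁻¹) * ((ρ g + ρ g⁻¹) * ρ g) * ρ g := by simp only [mul_assoc]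
          _ = (ρ g + ρ g⁻¹) * (ρ g * ρ g + 1) * ρ g := by rw [htF]
          _ = ((ρ g + ρ g⁻¹) * ρ g) * (ρ g * ρ g + 1) := by noncomm_ring
          _ = (ρ g * ρ g + 1) * (ρ g * ρ g + 1) := by rw [htF]
      have e2 : (ρ g + ρ g⁻¹) * (ρ g * ρ g) = (ρ g * ρ g + 1) * ρ g := by
        rw [← mul_assoc, htF]
      rw [sub_mul, add_mul, e1, e2]
      noncomm_ring
    rw [hgeo'] at key
    exact ((Fpf.isUnit_map ρ g).mul (Fpf.isUnit_map ρ g)).mul_left_eq_zero.mp key

theorem tkind_of_order (h : Fpf ρ) {z g : G} (hz : z ≠ 1) (hzz : z * z = 1) (hgg : g * g ≠ 1)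
    (hg : g ^ 4 = 1 ∨ g ^ 6 = 1 ∨ g ^ 10 = 1) : TKind (ρ g + ρ g⁻¹) := by
  have hF := map_mul_inv ρ g
  have hF' := map_inv_mul ρ g
  have hρz := h.neg_one hz hzz
  have hzc := h.invol_central hz hzz
  have hg1 : g ≠ 1 := by
    rintro rfl
    exact hgg (one_mul 1)
  have hgz : g * z ≠ 1 := by
    intro h1
    have h2 : g = z := by
      have h3 : g = z⁻¹ := eq_inv_of_mul_eq_one_left h1
      rw [h3]
      exact inv_eq_of_mul_eq_one_left hzz
    rw [h2] at hgg
    exact hgg hzz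
  have hzinv : z⁻¹ = z := inv_eq_of_mul_eq_one_left hzz
  -- the trace of `g * z` is minus the trace of `g`
  have htr : ρ (g * z) + ρ (g * z)⁻¹ = -(ρ g + ρ g⁻¹) := by
    rw [mul_inv_rev, hzinv, map_mul, map_mul, hρz, mul_neg_one, neg_one_mul, neg_add]
  -- powers of `g * z`
  have hpow : ∀ n : ℕ, (g * z) ^ n = g ^ n * z ^ n := by
    intro n
    have hc : Commute g z := hzc g
    exact hc.mul_pow n
  have hz2 : z ^ 2 = 1 := by rw [pow_two, hzz]
  rcases hg with hg4 | hg6 | hg10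
  · -- order 4
    left
    have h1 : g * g = z := by
      apply h.invol_unique hz hzz hgg
      have : g * g * (g * g) = g ^ 4 := by simp [pow_succ, mul_assoc]
      rw [this, hg4]
    have h2 : ρ g * ρ g = -1 := by rw [← map_mul, h1, hρz]
    have h3 : (ρ g + ρ g⁻¹) * ρ g = 0 := by
      rw [add_mul, hF', h2, neg_add_cancel]
    exact (Fpf.isUnit_map ρ g).mul_left_eq_zero.mp h3
  · -- order 3 or 6
    by_cases h3 : g ^ 3 = 1
    · right; left
      have h4 := h.order3 hg1 h3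
      have h5 : (ρ g + ρ g⁻¹ + 1) * ρ g = 0 := by
        rw [add_mul, add_mul, hF', one_mul]
        linear_combination (norm := noncomm_ring) h4
      have h6 := (Fpf.isUnit_map ρ g).mul_left_eq_zero.mp h5
      exact eq_neg_of_add_eq_zero_left h6
    · right; right; left
      have h4 : g ^ 3 = z := by
        apply h.invol_unique hz hzz h3
        rw [← pow_add]; exact hg6
      have h5 : (g * z) ^ 3 = 1 := by
        rw [hpow, h4]
        have : z ^ 3 = z := by rw [pow_succ, hz2, one_mul]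
        rw [this, hzz]
      have h6 := h.order3 hgz h5
      rw [map_mul, hρz] at h6
      have h7 : (ρ g + ρ g⁻¹ - 1) * ρ g = 0 := by
        rw [sub_mul, add_mul, hF', one_mul]
        linear_combination (norm := noncomm_ring) h6
      have h8 := (Fpf.isUnit_map ρ g).mul_left_eq_zero.mp h7
      exact sub_eq_zero.mp h8
  · -- order 5 or 10
    by_cases h5 : g ^ 5 = 1
    · right; right; right; left
      exact five h hg1 h5
    · right; right; right; right
      have h4 : g ^ 5 = z := by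
        apply h.invol_unique hz hzz h5
        rw [← pow_add]; exact hg10
      have h6 : (g * z) ^ 5 = 1 := by
        rw [hpow, h4]
        have : z ^ 5 = z := by
          rw [show 5 = 2 + 2 + 1 from rfl, pow_add, pow_add, hz2, pow_one, one_mul, one_mul]
        rw [this, hzz]
      obtain ⟨hu, h7⟩ := five h hgz h6
      refine ⟨hu, ?_⟩
      rw [htr] at h7
      linear_combination (norm := noncomm_ring) h7

end Cfsg.Agent.Lib.Helper71.Zas
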