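import Mathlib
import Cfsg.Agent.Lib.Helper16.ZQDef
import Cfsg.Agent.Lib.Helper73.Quat4

/-!
# D-R (helper71, for helper16's Zassenhaus project)

Three pure ring lemmas ("at most two quaternion blocks"): `zr_A`, `zr_B`, `zr_C`.
-/

set_option autoImplicit false
set_option linter.unusedSimpArgs false
set_option linter.unusedVariables false
set_option linter.deprecated false
set_option linter.unreachableTactic false
set_option linter.unusedTactic false

namespace Cfsg.Agent.Lib.Helper71.ZR

universe u

open Cfsg.Agent.Lib.Helper16.Zas Cfsg.Agent.Lib.Helper73.Quat4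

section comm

variable {S : Type*} [CommRing S] {h p q : S}

theorem golden_comm (h2 : 2 * h = 1) (hpp : h * h + p * p + (h - p) * (h - p) = 1) :
    p * p = h * p + h * h := by
  linear_combination h * hpp - (p * p - h * p + h * (h + 1)) * h2

theorem four_comm (h2 : 2 * h = 1) : 4 * (h * h) = 1 := by
  linear_combination (2 * h + 1) * h2

theorem coreB_comm (h2 : 2 * h = 1) (gp : p * p = h * p + h * h) (gq : q * q = h * q + h * h)
    (e : p * (h - q) = h * h) : (1 : S) = 0 := by
  have h4 : 4 * (h * h) = 1 := four_comm h2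
  have hu : 4 * (p - h) * p = 1 := by linear_combination 4 * gp + h4
  have hq : q = 1 - p := by
    linear_combination (-4 * (p - h)) * e + (4 * (p - h)) * gp + (2 * h - q - p) * hu + h2
  subst hq
  have hp : p = h := by linear_combination gp - gq + (p - 1) * h2
  subst hp
  linear_combination (-4 : S) * gp - h4

theorem coreA1_comm (h2 : 2 * h = 1) (gp : p * p = h * p + h * h)
    (gq : (p + 1) * (p + 1) = h * (p + 1) + h * h) : (1 : S) = 0 := by
  have h4 : 4 * (h * h) = 1 := four_comm h2
  have e1 : 2 * p = h - 1 := by linear_combination gq - gp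
  have e2 : 5 * (h * h) = 1 := by linear_combination (-4) * gp + (2 * p - h - 1) * e1
  linear_combination 4 * e2 - 5 * h4

theorem coreA2_comm (h2 : 2 * h = 1) (gp : p * p = h * p + h * h)
    (gq : (p - 1) * (p - 1) = h * (p - 1) + h * h) : (1 : S) = 0 := by
  have h4 : 4 * (h * h) = 1 := four_comm h2
  have e1 : 2 * p = 1 + h := by linear_combination gp - gq
  have e2 : 5 * (h * h) = 1 := by linear_combination (-4) * gp + (2 * p + 1 - h) * e1
  linear_combination 4 * e2 - 5 * h4

end comm

variable {R : Type u} [Ring R] {I J h p₂ p₃ q₂ q₃ : R}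

/-- Three pairwise commuting elements of a ring live in a commutative ring mapping injectively
to it. -/
theorem exists_comm_model {a b c : R} (hab : a * b = b * a) (hac : a * c = c * a)
    (hbc : b * c = c * b) :
    ∃ (S : Type u) (_ : CommRing S) (φ : S →+* R) (a' b' c' : S),
      Function.Injective φ ∧ φ a' = a ∧ φ b' = b ∧ φ c' = c := by
  let s : Set R := {a, b, c}
  have hs : ∀ x ∈ s, ∀ y ∈ s, x * y = y * x := by
    intro x hx y hy
    simp only [s, Set.mem_insert_iff, Set.mem_singleton_iff] at hx hy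
    rcases hx with rfl | rfl | rfl <;> rcases hy with rfl | rfl | rfl <;>
      first | rfl | assumption | (symm; assumption)
  exact ⟨Subring.closure s, Subring.closureCommRingOfComm hs, (Subring.closure s).subtype,
    ⟨a, Subring.subset_closure (by simp [s])⟩, ⟨b, Subring.subset_closure (by simp [s])⟩,
    ⟨c, Subring.subset_closure (by simp [s])⟩, Subtype.val_injective, rfl, rfl, rfl⟩

theorem q4_add' (a b c d a' b' c' d' : R) :
    q4 I J a b c d + q4 I J a' b' c' d' = q4 I J (a + a') (b + b') (c + c') (d + d') := by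
  simp only [q4, add_mul]; abel

theorem q4_sub' (a b c d a' b' c' d' : R) :
    q4 I J a b c d - q4 I J a' b' c' d' = q4 I J (a - a') (b - b') (c - c') (d - d') := by
  simp only [q4, sub_mul]; abel

theorem q4_add_re (a b c d r : R) : q4 I J a b c d + r = q4 I J (a + r) b c d := by
  simp only [q4]; abel

theorem q4_I : q4 I J 0 1 0 0 = I := by simp [q4]

theorem q4_eq_re {a b c d r : R} (ha : a = r) (hb : b = 0) (hc : c = 0) (hd : d = 0) :
    q4 I J a b c d = r := by
  subst ha hb hc hd; simp [q4]

theorem q4_congr {a b c d a' b' c' d' : R} (ha : a = a') (hb : b = b') (hc : c = c')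
    (hd : d = d') : q4 I J a b c d = q4 I J a' b' c' d' := by
  subst ha hb hc hd; rfl

theorem golden (hc : ∀ x : R, h * x = x * h) (h2 : 2 * h = 1) {p : R}
    (hpp : h * h + p * p + (h - p) * (h - p) = 1) : p * p = h * p + h * h := by
  obtain ⟨S, _, φ, h', p', -, inj, rfl, rfl, -⟩ := exists_comm_model (hc p) (hc p) rfl
  have h2' : 2 * h' = 1 := inj (by simp only [map_mul, map_ofNat, map_one]; exact h2)
  have hpp' : h' * h' + p' * p' + (h' - p') * (h' - p') = 1 :=
    inj (by simp only [map_add, map_sub, map_mul, map_one]; exact hpp)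
  have key := congrArg φ (golden_comm h2' hpp')
  simpa only [map_add, map_mul] using key

theorem w_quad {X A B : R} (hX : X * X = -1) (hA : A * A = -1) (hB : B * B = -1)
    (hXA : X * A + A * X = -1) (hXB : X * B + B * X = -1) (hAB : A * B + B * A = -1) :
    (X - A) * (X - B) * ((X - A) * (X - B)) + (X - A) * (X - B) + 1 = 0 := by
  have t2 : (X - A) * (X - A) = -1 := by
    linear_combination (norm := noncomm_ring) hX - hXA + hA
  have t3 : (X - B) * (X - B) = -1 := by
    linear_combination (norm := noncomm_ring) hX - hXB + hB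
  have hs : (X - A) * (X - B) + (X - B) * (X - A) = -1 := by
    linear_combination (norm := noncomm_ring) hX + hX - hXB - hXA + hAB
  linear_combination (norm := noncomm_ring)
    (X - A) * hs * (X - B) - t2 * ((X - B) * (X - B)) + t3

theorem w_comm {T₂ T₃ u : R} (e2 : T₂ * u = (-1 - u) * T₂) (e3 : T₃ * u = (-1 - u) * T₃) :
    T₂ * T₃ * u = u * (T₂ * T₃) := by
  linear_combination (norm := noncomm_ring) T₂ * e3 - e2 * T₃

theorem anti_I (hI : I * I = -1) (hJ : J * J = -1) (hJI : J * I = -(I * J)) {β γ δ : R}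
    (cβ : Cen I J β) (cγ : Cen I J γ) (cδ : Cen I J δ) :
    I * q4 I J 0 β γ δ + q4 I J 0 β γ δ * I = -(β + β) := by
  have e1 := q4_mul hI hJ hJI 0 1 0 0 Cen.zero cβ cγ cδ
  have e2 := q4_mul hI hJ hJI 0 β γ δ Cen.zero Cen.one Cen.zero Cen.zero
  rw [q4_I] at e1 e2
  rw [e1, e2, q4_add']
  exact q4_eq_re (by noncomm_ring) (by noncomm_ring) (by noncomm_ring) (by noncomm_ring)

theorem sq_neg_one (hI : I * I = -1) (hJ : J * J = -1) (hJI : J * I = -(I * J))
    (hc : ∀ x : R, h * x = x * h) (ch : Cen I J h) {p : R} (cp : Cen I J p)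
    (cp' : Cen I J (h - p)) (hpp : h * h + p * p + (h - p) * (h - p) = 1) :
    q4 I J 0 h p (h - p) * q4 I J 0 h p (h - p) = -1 := by
  rw [q4_mul hI hJ hJI 0 h p (h - p) Cen.zero ch cp cp']
  refine q4_eq_re ?_ ?_ ?_ ?_
  · linear_combination (norm := noncomm_ring) -hpp
  · linear_combination (norm := noncomm_ring) -(hc p)
  · linear_combination (norm := noncomm_ring) -(hc (h - p))
  · linear_combination (norm := noncomm_ring) hc p

theorem eT (hh : h + h = 1) (p p' : R) :
    I - q4 I J 0 h p p' = q4 I J 0 h (-p) (-p') := by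
  simp only [q4]
  linear_combination (norm := noncomm_ring) -(hh * I)

theorem eU (hh : h + h = 1) :
    -1 - q4 I J (-h) (-h) (-h) (-h) = q4 I J (-h) h h h := by
  simp only [q4]
  linear_combination (norm := noncomm_ring) hh

theorem T_u (hI : I * I = -1) (hJ : J * J = -1) (hJI : J * I = -(I * J)) (hh : h + h = 1)
    (hc : ∀ x : R, h * x = x * h) (ch : Cen I J h) {p : R} (cp : Cen I J p)
    (cp' : Cen I J (h - p)) :
    (I - q4 I J 0 h p (h - p)) * q4 I J (-h) (-h) (-h) (-h) =
      (-1 - q4 I J (-h) (-h) (-h) (-h)) * (I - q4 I J 0 h p (h - p)) := by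
  rw [eT hh, eU hh, q4_mul hI hJ hJI 0 h (-p) (-(h - p)) ch.neg ch.neg ch.neg ch.neg,
    q4_mul hI hJ hJI (-h) h h h Cen.zero ch cp.neg cp'.neg]
  refine q4_congr ?_ ?_ ?_ ?_
  · noncomm_ring
  · linear_combination (norm := noncomm_ring) -(hc p) - (hc p)
  · noncomm_ring
  · linear_combination (norm := noncomm_ring) hc p + hc p

theorem zr_B (hI : I * I = -1) (hJ : J * J = -1) (hJI : J * I = -(I * J)) (h2 : 2 * h = 1)
    (hnt : (1 : R) ≠ 0) (cp2 : Cen I J p₂) (cp3 : Cen I J p₃) (cq2 : Cen I J q₂)
    (cq3 : Cen I J q₃) (hp : p₂ + p₃ = h) (hq : q₂ + q₃ = h)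
    (hpp : h * h + p₂ * p₂ + p₃ * p₃ = 1) (hqq : h * h + q₂ * q₂ + q₃ * q₃ = 1)
    (hB : q4 I J 0 h p₂ p₃ * q4 I J 0 q₃ h q₂ + q4 I J 0 q₃ h q₂ * q4 I J 0 h p₂ p₃ = -1) :
    False := by
  obtain rfl : p₃ = h - p₂ := eq_sub_of_add_eq' hp
  obtain rfl : q₃ = h - q₂ := eq_sub_of_add_eq' hq
  have hc : ∀ x : R, h * x = x * h := half_comm h2
  have ch : Cen I J h := half_cen h2
  rw [q4_mul hI hJ hJI 0 h p₂ (h - p₂) Cen.zero cq3 ch cq2,
    q4_mul hI hJ hJI 0 (h - q₂) h q₂ Cen.zero ch cp2 cp3, q4_add'] at hB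
  have h0 := congrArg (fun x => x + 1) hB
  simp only [q4_add_re, neg_add_cancel] at h0
  obtain ⟨r0, -, -, r3⟩ := q4_uniq hI hJ hJI h2
    (by repeat' first | assumption | exact Cen.zero | exact Cen.one | apply Cen.add
                          | apply Cen.sub | apply Cen.mul | apply Cen.neg)
    (by repeat' first | assumption | exact Cen.zero | exact Cen.one | apply Cen.add
                          | apply Cen.sub | apply Cen.mul | apply Cen.neg)
    (by repeat' first | assumption | exact Cen.zero | exact Cen.one | apply Cen.add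
                          | apply Cen.sub | apply Cen.mul | apply Cen.neg)
    (by repeat' first | assumption | exact Cen.zero | exact Cen.one | apply Cen.add
                          | apply Cen.sub | apply Cen.mul | apply Cen.neg) h0
  have hpq : p₂ * q₂ = q₂ * p₂ := by linear_combination (norm := noncomm_ring) r3 - hc p₂
  obtain ⟨S, _, φ, h', p', q', inj, rfl, rfl, rfl⟩ := exists_comm_model (hc p₂) (hc q₂) hpq
  have h2' : 2 * h' = 1 := inj (by simp only [map_mul, map_ofNat, map_one]; exact h2)
  have r0' : 0 * 0 - h' * (h' - q') - p' * h' - (h' - p') * q' +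
      (0 * 0 - (h' - q') * h' - h' * p' - q' * (h' - p')) + 1 = 0 :=
    inj (by simp only [map_add, map_sub, map_mul, map_zero, map_one]; exact r0)
  have hpp' : h' * h' + p' * p' + (h' - p') * (h' - p') = 1 :=
    inj (by simp only [map_add, map_sub, map_mul, map_one]; exact hpp)
  have hqq' : h' * h' + q' * q' + (h' - q') * (h' - q') = 1 :=
    inj (by simp only [map_add, map_sub, map_mul, map_one]; exact hqq)
  have gp := golden_comm h2' hpp'
  have gq := golden_comm h2' hqq'
  have e' : p' * (h' - q') = h' * h' := by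
    linear_combination (-h') * r0' - (p' * h' - p' * q' + h' * (h' + 1)) * h2'
  have key := congrArg φ (coreB_comm h2' gp gq e')
  rw [map_one, map_zero] at key
  exact hnt key

theorem zr_C (hI : I * I = -1) (hJ : J * J = -1) (hJI : J * I = -(I * J)) (h2 : 2 * h = 1)
    (hnt : (1 : R) ≠ 0) (cp2 : Cen I J p₂) (cp3 : Cen I J p₃) (cq2 : Cen I J q₂)
    (cq3 : Cen I J q₃) (hp : p₂ + p₃ = h) (hq : q₂ + q₃ = h)
    (hpp : h * h + p₂ * p₂ + p₃ * p₃ = 1) (hqq : h * h + q₂ * q₂ + q₃ * q₃ = 1)
    (hC : q4 I J 0 h p₂ p₃ * q4 I J 0 q₂ q₃ h + q4 I J 0 q₂ q₃ h * q4 I J 0 h p₂ p₃ = -1) :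
    False := by
  obtain rfl : p₃ = h - p₂ := eq_sub_of_add_eq' hp
  obtain rfl : q₃ = h - q₂ := eq_sub_of_add_eq' hq
  have hc : ∀ x : R, h * x = x * h := half_comm h2
  have ch : Cen I J h := half_cen h2
  rw [q4_mul hI hJ hJI 0 h p₂ (h - p₂) Cen.zero cq2 cq3 ch,
    q4_mul hI hJ hJI 0 q₂ (h - q₂) h Cen.zero ch cp2 cp3, q4_add'] at hC
  have h0 := congrArg (fun x => x + 1) hC
  simp only [q4_add_re, neg_add_cancel] at h0
  obtain ⟨r0, -, -, r3⟩ := q4_uniq hI hJ hJI h2
    (by repeat' first | assumption | exact Cen.zero | exact Cen.one | apply Cen.add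
                          | apply Cen.sub | apply Cen.mul | apply Cen.neg)
    (by repeat' first | assumption | exact Cen.zero | exact Cen.one | apply Cen.add
                          | apply Cen.sub | apply Cen.mul | apply Cen.neg)
    (by repeat' first | assumption | exact Cen.zero | exact Cen.one | apply Cen.add
                          | apply Cen.sub | apply Cen.mul | apply Cen.neg)
    (by repeat' first | assumption | exact Cen.zero | exact Cen.one | apply Cen.add
                          | apply Cen.sub | apply Cen.mul | apply Cen.neg) h0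
  have hpq : p₂ * q₂ = q₂ * p₂ := by linear_combination (norm := noncomm_ring) -r3 - hc q₂
  obtain ⟨S, _, φ, h', p', q', inj, rfl, rfl, rfl⟩ := exists_comm_model (hc p₂) (hc q₂) hpq
  have h2' : 2 * h' = 1 := inj (by simp only [map_mul, map_ofNat, map_one]; exact h2)
  have r0' : 0 * 0 - h' * q' - p' * (h' - q') - (h' - p') * h' +
      (0 * 0 - q' * h' - (h' - q') * p' - h' * (h' - p')) + 1 = 0 :=
    inj (by simp only [map_add, map_sub, map_mul, map_zero, map_one]; exact r0)
  have hpp' : h' * h' + p' * p' + (h' - p') * (h' - p') = 1 :=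
    inj (by simp only [map_add, map_sub, map_mul, map_one]; exact hpp)
  have hqq' : h' * h' + q' * q' + (h' - q') * (h' - q') = 1 :=
    inj (by simp only [map_add, map_sub, map_mul, map_one]; exact hqq)
  have gp := golden_comm h2' hpp'
  have gq := golden_comm h2' hqq'
  have e' : q' * (h' - p') = h' * h' := by
    linear_combination (-h') * r0' - (q' * h' - q' * p' + h' * (h' + 1)) * h2'
  have key := congrArg φ (coreB_comm h2' gq gp e')
  rw [map_one, map_zero] at key
  exact hnt key

theorem zr_A (hI : I * I = -1) (hJ : J * J = -1) (hJI : J * I = -(I * J)) (h2 : 2 * h = 1)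
    (hnt : (1 : R) ≠ 0) (cp2 : Cen I J p₂) (cp3 : Cen I J p₃) (cq2 : Cen I J q₂)
    (cq3 : Cen I J q₃) (hp : p₂ + p₃ = h) (hq : q₂ + q₃ = h)
    (hpp : h * h + p₂ * p₂ + p₃ * p₃ = 1) (hqq : h * h + q₂ * q₂ + q₃ * q₃ = 1)
    (hA : q4 I J 0 h p₂ p₃ * q4 I J 0 h q₂ q₃ + q4 I J 0 h q₂ q₃ * q4 I J 0 h p₂ p₃ = -1) :
    (I - q4 I J 0 h p₂ p₃) * (I - q4 I J 0 h q₂ q₃) * ((I - q4 I J 0 h p₂ p₃) * (I - q4 I J 0 h q₂ q₃)) + (I - q4 I J 0 h p₂ p₃) * (I - q4 I J 0 h q₂ q₃) + 1 = 0 ∧
    (I - q4 I J 0 h p₂ p₃) * (I - q4 I J 0 h q₂ q₃) * q4 I J (-h) (-h) (-h) (-h) = q4 I J (-h) (-h) (-h) (-h) * ((I - q4 I J 0 h p₂ p₃) * (I - q4 I J 0 h q₂ q₃)) ∧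
    (I - q4 I J 0 h p₂ p₃) * (I - q4 I J 0 h q₂ q₃) ≠ q4 I J (-h) (-h) (-h) (-h) ∧
    (I - q4 I J 0 h p₂ p₃) * (I - q4 I J 0 h q₂ q₃) ≠ -1 - q4 I J (-h) (-h) (-h) (-h) := by
  obtain rfl : p₃ = h - p₂ := eq_sub_of_add_eq' hp
  obtain rfl : q₃ = h - q₂ := eq_sub_of_add_eq' hq
  have hc : ∀ x : R, h * x = x * h := half_comm h2
  have ch : Cen I J h := half_cen h2
  have hh : h + h = 1 := by rw [← two_mul]; exact h2
  have gp := golden hc h2 hpp
  have gq := golden hc h2 hqq
  refine ⟨?_, ?_, ?_, ?_⟩
  · refine w_quad hI (sq_neg_one hI hJ hJI hc ch cp2 cp3 hpp)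
      (sq_neg_one hI hJ hJI hc ch cq2 cq3 hqq) ?_ ?_ hA
    · rw [anti_I hI hJ hJI ch cp2 cp3, hh]
    · rw [anti_I hI hJ hJI ch cq2 cq3, hh]
  · exact w_comm (T_u hI hJ hJI hh hc ch cp2 cp3) (T_u hI hJ hJI hh hc ch cq2 cq3)
  · intro hW
    rw [eT hh, eT hh, q4_mul hI hJ hJI 0 h (-p₂) (-(h - p₂)) Cen.zero ch cq2.neg cq3.neg] at hW
    have h0 := sub_eq_zero.mpr hW
    rw [q4_sub'] at h0
    obtain ⟨-, -, -, r3⟩ := q4_uniq hI hJ hJI h2
      (by repeat' first | assumption | exact Cen.zero | exact Cen.one | apply Cen.add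
                          | apply Cen.sub | apply Cen.mul | apply Cen.neg)
      (by repeat' first | assumption | exact Cen.zero | exact Cen.one | apply Cen.add
                          | apply Cen.sub | apply Cen.mul | apply Cen.neg)
      (by repeat' first | assumption | exact Cen.zero | exact Cen.one | apply Cen.add
                          | apply Cen.sub | apply Cen.mul | apply Cen.neg)
      (by repeat' first | assumption | exact Cen.zero | exact Cen.one | apply Cen.add
                          | apply Cen.sub | apply Cen.mul | apply Cen.neg) h0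
    have hq1 : q₂ = p₂ + 1 := by
      linear_combination (norm := noncomm_ring) -r3 - r3 - hh * q₂ + p₂ * hh + hh
    subst hq1
    obtain ⟨S, _, φ, h', p', -, inj, rfl, rfl, -⟩ := exists_comm_model (hc p₂) (hc p₂) rfl
    have h2' : 2 * h' = 1 := inj (by simp only [map_mul, map_ofNat, map_one]; exact h2)
    have gp' : p' * p' = h' * p' + h' * h' :=
      inj (by simp only [map_add, map_mul]; exact gp)
    have gq' : (p' + 1) * (p' + 1) = h' * (p' + 1) + h' * h' :=
      inj (by simp only [map_add, map_mul, map_one]; exact gq)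
    have key := congrArg φ (coreA1_comm h2' gp' gq')
    rw [map_one, map_zero] at key
    exact hnt key
  · intro hW
    rw [eT hh, eT hh, eU hh,
      q4_mul hI hJ hJI 0 h (-p₂) (-(h - p₂)) Cen.zero ch cq2.neg cq3.neg] at hW
    have h0 := sub_eq_zero.mpr hW
    rw [q4_sub'] at h0
    obtain ⟨-, -, -, r3⟩ := q4_uniq hI hJ hJI h2
      (by repeat' first | assumption | exact Cen.zero | exact Cen.one | apply Cen.add
                          | apply Cen.sub | apply Cen.mul | apply Cen.neg)
      (by repeat' first | assumption | exact Cen.zero | exact Cen.one | apply Cen.add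
                          | apply Cen.sub | apply Cen.mul | apply Cen.neg)
      (by repeat' first | assumption | exact Cen.zero | exact Cen.one | apply Cen.add
                          | apply Cen.sub | apply Cen.mul | apply Cen.neg)
      (by repeat' first | assumption | exact Cen.zero | exact Cen.one | apply Cen.add
                          | apply Cen.sub | apply Cen.mul | apply Cen.neg) h0
    have hq1 : q₂ = p₂ - 1 := by
      linear_combination (norm := noncomm_ring) -r3 - r3 - hh * q₂ + p₂ * hh - hh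
    subst hq1
    obtain ⟨S, _, φ, h', p', -, inj, rfl, rfl, -⟩ := exists_comm_model (hc p₂) (hc p₂) rfl
    have h2' : 2 * h' = 1 := inj (by simp only [map_mul, map_ofNat, map_one]; exact h2)
    have gp' : p' * p' = h' * p' + h' * h' :=
      inj (by simp only [map_add, map_mul]; exact gp)
    have gq' : (p' - 1) * (p' - 1) = h' * (p' - 1) + h' * h' :=
      inj (by simp only [map_add, map_sub, map_mul, map_one]; exact gq)
    have key := congrArg φ (coreA2_comm h2' gp' gq')
    rw [map_one, map_zero] at key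
    exact hnt key

end Cfsg.Agent.Lib.Helper71.ZR
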