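import Mathlib
import Cfsg.Agent.Lib.Helper97.KLin

/-!
# Degree two extension fields: commutator of two `K`-transvections (piece P-II of S5886)

Helper library (helper71, for helper97's S5886).  `K` is a field subalgebra of degree two of the
matrix algebra, `M` a subgroup containing the `K`-linear maps of determinant one, and `h ∈ M`
fixes `u` but does not map the `K`-line through `u` into itself.  When `n > 4` the commutator of a
`K`-transvection with an `h`-conjugate of another one is an `F`-transvection with centre `u`.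
-/

set_option autoImplicit false

namespace Cfsg.Agent.Lib.Helper71.KLinR2

open Matrix Cfsg.Agent.Lib.Helper97

variable {F : Type*} [Field F] [Fintype F] {n : ℕ} {K : Subalgebra F (Matrix (Fin n) (Fin n) F)}

/-- The commutator identity `(1+A)(1+B)(1-A)(1-B) = 1 + AB` when `A² = B² = BA = 0`. -/
lemma comm_id {R : Type*} [Ring R] (A B : R) (hA : A * A = 0) (hB : B * B = 0)
    (hBA : B * A = 0) : (1 + A) * (1 + B) * (1 - A) * (1 - B) = 1 + A * B := by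
  linear_combination (norm := noncomm_ring)
    -hA + hA * B - hBA - hB + hBA * B - A * hBA - A * hB + A * hBA * B

omit [Fintype F] in
/-- In the situation of the pieces P-II / P-III, `ω` is not a scalar. -/
lemma omega_not_scalar (u : Fin n → F) (h : GL (Fin n) F)
    (hhu : (h : Matrix (Fin n) (Fin n) F) *ᵥ u = u) (ω : ↥K)
    (hω : ∀ k : ↥K, (k : Matrix (Fin n) (Fin n) F) *ᵥ u ≠
      (h : Matrix (Fin n) (Fin n) F) *ᵥ ((ω : Matrix (Fin n) (Fin n) F) *ᵥ u)) :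
    ∀ c : F, ω ≠ c • (1 : ↥K) := by
  intro c hc
  apply hω (c • (1 : ↥K))
  rw [hc, Subalgebra.coe_smul, OneMemClass.coe_one, Matrix.smul_mulVec, Matrix.one_mulVec,
    Matrix.mulVec_smul, hhu]

/-- Piece P-II of S5886: `r = 2`, `n > 4`. -/
theorem exists_TM_r2_big (hK : Cfsg.Geo.IsFieldSubalgebra 2 K) (hn : 4 < n)
    (M : Subgroup (GL (Fin n) F)) (hM : klG K ≤ M) (u : Fin n → F) (hu : u ≠ 0)
    (h : GL (Fin n) F) (hh : h ∈ M) (hhu : (h : Matrix (Fin n) (Fin n) F) *ᵥ u = u) (ω : ↥K)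
    (hω : ∀ k : ↥K, (k : Matrix (Fin n) (Fin n) F) *ᵥ u ≠
      (h : Matrix (Fin n) (Fin n) F) *ᵥ ((ω : Matrix (Fin n) (Fin n) F) *ᵥ u)) :
    ∃ ψ : Fin n → F, ψ ≠ 0 ∧ TM M u ψ := by
  have hne : Nonempty (Fin n) := ⟨⟨0, by omega⟩⟩
  have hωs := omega_not_scalar u h hhu ω hω
  obtain ⟨H, hH⟩ : ∃ H : Matrix (Fin n) (Fin n) F, H = (h : Matrix (Fin n) (Fin n) F) := ⟨_, rfl⟩
  obtain ⟨Hi, hHi⟩ : ∃ Hi : Matrix (Fin n) (Fin n) F,
      Hi = ((h⁻¹ : GL (Fin n) F) : Matrix (Fin n) (Fin n) F) := ⟨_, rfl⟩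
  rw [← hH] at hhu hω
  have hHHi : H * Hi = 1 := by rw [hH, hHi, ← Units.val_mul, mul_inv_cancel, Units.val_one]
  have hHiH : Hi * H = 1 := by rw [hH, hHi, ← Units.val_mul, inv_mul_cancel, Units.val_one]
  have hHiu : Hi *ᵥ u = u := by
    calc Hi *ᵥ u = Hi *ᵥ (H *ᵥ u) := by rw [hhu]
      _ = u := by rw [Matrix.mulVec_mulVec, hHiH, Matrix.one_mulVec]
  obtain ⟨ωu, hωu⟩ : ∃ ωu : Fin n → F, ωu = (ω : Matrix (Fin n) (Fin n) F) *ᵥ u := ⟨_, rfl⟩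
  obtain ⟨v, hv⟩ : ∃ v : Fin n → F, v = H *ᵥ ωu := ⟨_, rfl⟩
  obtain ⟨w, hw⟩ : ∃ w : Fin n → F, w = Hi *ᵥ ωu := ⟨_, rfl⟩
  rw [← hωu, ← hv] at hω
  obtain ⟨π, hπu, hπv⟩ := exists_kfun_pair hK u v hω
  obtain ⟨y, hy⟩ := exists_notMem_plane hK (by omega : 2 * 2 < n) u w
  obtain ⟨ρ, hρu, hρw, hρy⟩ := exists_kfun hK u w y hy
  have hdec : ∀ k : ↥K, ∃ a b : F,
      (k : Matrix (Fin n) (Fin n) F) *ᵥ u = a • u + b • ωu := by
    intro k
    obtain ⟨a, b, hab⟩ := fs_two_decomp_mulVec hK ω hωs k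
    exact ⟨a, b, by rw [hωu]; exact hab u⟩
  obtain ⟨E, hE⟩ : ∃ E : Matrix (Fin n) (Fin n) F, E = kT u π := ⟨_, rfl⟩
  obtain ⟨E₂, hE₂⟩ : ∃ E₂ : Matrix (Fin n) (Fin n) F, E₂ = kT u ρ := ⟨_, rfl⟩
  have hEE : E * E = 0 := by rw [hE]; exact kT_sq u π hπu
  have hE₂E₂ : E₂ * E₂ = 0 := by rw [hE₂]; exact kT_sq u ρ hρu
  have hz : E₂ * Hi * E = 0 := by
    apply Matrix.mulVec_injective
    funext x
    obtain ⟨a, b, hab⟩ := hdec (π x)
    rw [← Matrix.mulVec_mulVec, ← Matrix.mulVec_mulVec, hE, kT_mulVec, hab, Matrix.mulVec_add,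
      Matrix.mulVec_smul, Matrix.mulVec_smul, hHiu, ← hw, hE₂, kT_mulVec, ρ.map_add, ρ.map_smul,
      ρ.map_smul, hρu, hρw, smul_zero, smul_zero, add_zero, ZeroMemClass.coe_zero,
      Matrix.zero_mulVec, Matrix.zero_mulVec]
  obtain ⟨E', hE'⟩ : ∃ E' : Matrix (Fin n) (Fin n) F, E' = H * E₂ * Hi := ⟨_, rfl⟩
  have hE'E' : E' * E' = 0 := by
    rw [hE']
    calc H * E₂ * Hi * (H * E₂ * Hi) = H * (E₂ * ((Hi * H) * E₂)) * Hi := by
          simp only [mul_assoc]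
      _ = 0 := by rw [hHiH, one_mul, hE₂E₂, mul_zero, zero_mul]
  have hE'E : E' * E = 0 := by
    rw [hE', mul_assoc H, mul_assoc H, hz, mul_zero]
  have hg₁M : ktG u π hπu ∈ M := hM (ktG_mem u π hπu)
  have hg₂M : ktG u ρ hρu ∈ M := hM (ktG_mem u ρ hρu)
  obtain ⟨t, ht⟩ : ∃ t : GL (Fin n) F, t = ktG u π hπu * (h * ktG u ρ hρu * h⁻¹) *
      (ktG u π hπu)⁻¹ * (h * (ktG u ρ hρu)⁻¹ * h⁻¹) := ⟨_, rfl⟩
  have htM : t ∈ M := by
    rw [ht]
    exact M.mul_mem (M.mul_mem (M.mul_mem hg₁M (M.mul_mem (M.mul_mem hh hg₂M) (M.inv_mem hh)))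
      (M.inv_mem hg₁M)) (M.mul_mem (M.mul_mem hh (M.inv_mem hg₂M)) (M.inv_mem hh))
  have htval : (t : Matrix (Fin n) (Fin n) F) = 1 + E * E' := by
    have e1 : (ktG u π hπu : Matrix (Fin n) (Fin n) F) = 1 + E := by rw [hE]; rfl
    have e2 : (((ktG u π hπu)⁻¹ : GL (Fin n) F) : Matrix (Fin n) (Fin n) F) = 1 - E := by
      rw [hE]; rfl
    have e3 : (ktG u ρ hρu : Matrix (Fin n) (Fin n) F) = 1 + E₂ := by rw [hE₂]; rfl
    have e4 : (((ktG u ρ hρu)⁻¹ : GL (Fin n) F) : Matrix (Fin n) (Fin n) F) = 1 - E₂ := by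
      rw [hE₂]; rfl
    have e5 : H * (1 + E₂) * Hi = 1 + E' := by
      rw [hE', mul_add, add_mul, mul_one, hHHi]
    have e6 : H * (1 - E₂) * Hi = 1 - E' := by
      rw [hE', mul_sub, sub_mul, mul_one, hHHi]
    rw [ht, Units.val_mul, Units.val_mul, Units.val_mul, Units.val_mul, Units.val_mul,
      Units.val_mul, Units.val_mul, e1, e2, e3, e4, ← hH, ← hHi, e5, e6]
    exact comm_id E E' hEE hE'E' hE'E
  have hkey : ∀ (k : ↥K) (a b : F), (k : Matrix (Fin n) (Fin n) F) *ᵥ u = a • u + b • ωu →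
      ((π (H *ᵥ ((k : Matrix (Fin n) (Fin n) F) *ᵥ u)) : ↥K) : Matrix (Fin n) (Fin n) F) *ᵥ u
        = b • u := by
    intro k a b hab
    rw [hab, Matrix.mulVec_add, Matrix.mulVec_smul, Matrix.mulVec_smul, hhu, ← hv, π.map_add,
      π.map_smul, π.map_smul, hπu, hπv, smul_zero, zero_add, Subalgebra.coe_smul,
      OneMemClass.coe_one, Matrix.smul_mulVec, Matrix.one_mulVec]
  have hEE'x : ∀ x : Fin n → F, (E * E') *ᵥ x =
      ((π (H *ᵥ (((ρ (Hi *ᵥ x) : ↥K) : Matrix (Fin n) (Fin n) F) *ᵥ u)) : ↥K) :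
        Matrix (Fin n) (Fin n) F) *ᵥ u := by
    intro x
    rw [hE', ← mul_assoc, ← mul_assoc, ← Matrix.mulVec_mulVec, ← Matrix.mulVec_mulVec,
      ← Matrix.mulVec_mulVec, hE₂, kT_mulVec, hE, kT_mulVec]
  have hb : ∀ x : Fin n → F, ∃ b : F, (E * E') *ᵥ x = b • u := by
    intro x
    obtain ⟨a, b, hab⟩ := hdec (ρ (Hi *ᵥ x))
    exact ⟨b, by rw [hEE'x, hkey _ a b hab]⟩
  obtain ⟨i, hi⟩ : ∃ i, u i ≠ 0 := by
    by_contra hcon
    push Not at hcon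
    exact hu (funext hcon)
  obtain ⟨ψ, hψ⟩ : ∃ ψ : Fin n → F, ψ = (u i)⁻¹ • (fun j => (E * E') i j) := ⟨_, rfl⟩
  have hψx : ∀ x : Fin n → F, (E * E') *ᵥ x = (ψ ⬝ᵥ x) • u := by
    intro x
    obtain ⟨b, hbx⟩ := hb x
    have h1 : ψ ⬝ᵥ x = (u i)⁻¹ * ((E * E') *ᵥ x) i := by
      rw [hψ, smul_dotProduct, smul_eq_mul]; rfl
    rw [h1, hbx, Pi.smul_apply, smul_eq_mul, mul_comm b, ← mul_assoc, inv_mul_cancel₀ hi, one_mul]
  have hψu : ψ ⬝ᵥ u = 0 := by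
    have h1 := hψx u
    have h2 : (E * E') *ᵥ u = 0 := by
      rw [hEE'x, hHiu, hρu, ZeroMemClass.coe_zero, Matrix.zero_mulVec, Matrix.mulVec_zero,
        π.map_zero, ZeroMemClass.coe_zero, Matrix.zero_mulVec]
    rw [h2] at h1
    rcases smul_eq_zero.mp h1.symm with h3 | h3
    · exact h3
    · exact absurd h3 hu
  have hψ0 : ψ ≠ 0 := by
    intro h0
    have h1 := hψx (H *ᵥ ((ω : Matrix (Fin n) (Fin n) F) *ᵥ y))
    rw [h0, zero_dotProduct, zero_smul, hEE'x, Matrix.mulVec_mulVec _ Hi H, hHiH, Matrix.one_mulVec,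
      ρ.map_k, hρy, mul_one, ← hωu, ← hv, hπv, OneMemClass.coe_one, Matrix.one_mulVec] at h1
    exact hu h1
  refine ⟨ψ, hψ0, hψu, fun t' ht' => ?_⟩
  have htt : t' = t := by
    apply Units.ext
    rw [ht', htval]
    apply Matrix.mulVec_injective
    funext x
    rw [tv_mulVec, Matrix.add_mulVec, Matrix.one_mulVec, hψx]
  rw [htt]
  exact htM

end Cfsg.Agent.Lib.Helper71.KLinR2
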