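import Mathlib
import Cfsg.Agent.Lib.Helper97.KLin
import Cfsg.Agent.Lib.Helper71.KLinR2a

/-!
# Degree two extension fields: an element stabilising a `K`-line without normalising `K` on it
(piece P-III of S5886)

Helper library (helper71, for helper97's S5886).  `K` is a field subalgebra of degree two of the
matrix algebra over a field with at least three elements, `M` a subgroup containing the
`K`-linear maps of determinant one, and `h ∈ M` fixes `u` but does not map the `K`-line through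
`u` into itself.  Then a conjugate by `h` of a suitable `K`-transvection stabilises the `K`-line
through `u` but does not normalise the action of `K` on it.
-/

set_option autoImplicit false

namespace Cfsg.Agent.Lib.Helper71.KLinR2

open Matrix Cfsg.Agent.Lib.Helper97

variable {F : Type*} [Field F] [Fintype F] {n : ℕ} {K : Subalgebra F (Matrix (Fin n) (Fin n) F)}

/-- Piece P-III of S5886: `r = 2`, `q ≥ 3`. -/
theorem exists_notNormL_r2 (hK : Cfsg.Geo.IsFieldSubalgebra 2 K) (hq : 3 ≤ Fintype.card F)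
    (hn : 2 < n) (M : Subgroup (GL (Fin n) F)) (hM : klG K ≤ M) (u : Fin n → F) (hu : u ≠ 0)
    (h : GL (Fin n) F) (hh : h ∈ M) (hhu : (h : Matrix (Fin n) (Fin n) F) *ᵥ u = u) (ω : ↥K)
    (hω : ∀ k : ↥K, (k : Matrix (Fin n) (Fin n) F) *ᵥ u ≠
      (h : Matrix (Fin n) (Fin n) F) *ᵥ ((ω : Matrix (Fin n) (Fin n) F) *ᵥ u)) :
    ∃ z : GL (Fin n) F, z ∈ M ∧ StabL K u (z : Matrix (Fin n) (Fin n) F) ∧
      ¬ NormL K u (z : Matrix (Fin n) (Fin n) F) := by
  classical
  have hne : Nonempty (Fin n) := ⟨⟨0, by omega⟩⟩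
  have hωs := omega_not_scalar u h hhu ω hω
  obtain ⟨H, hH⟩ : ∃ H : Matrix (Fin n) (Fin n) F, H = (h : Matrix (Fin n) (Fin n) F) := ⟨_, rfl⟩
  obtain ⟨Hi, hHi⟩ : ∃ Hi : Matrix (Fin n) (Fin n) F,
      Hi = ((h⁻¹ : GL (Fin n) F) : Matrix (Fin n) (Fin n) F) := ⟨_, rfl⟩
  rw [← hH] at hhu hω
  have hHHi : H * Hi = 1 := by rw [hH, hHi, ← Units.val_mul, mul_inv_cancel, Units.val_one]
  have hHiH : Hi * H = 1 := by rw [hH, hHi, ← Units.val_mul, inv_mul_cancel, Units.val_one]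
  have hHiu : Hi *ᵥ u = u := by
    calc Hi *ᵥ u = Hi *ᵥ (H *ᵥ u) := by rw [hhu]
      _ = u := by rw [Matrix.mulVec_mulVec, hHiH, Matrix.one_mulVec]
  obtain ⟨ωu, hωu⟩ : ∃ ωu : Fin n → F, ωu = (ω : Matrix (Fin n) (Fin n) F) *ᵥ u := ⟨_, rfl⟩
  obtain ⟨v, hv⟩ : ∃ v : Fin n → F, v = H *ᵥ ωu := ⟨_, rfl⟩
  rw [← hωu, ← hv] at hω
  have hHiv : Hi *ᵥ v = ωu := by rw [hv, Matrix.mulVec_mulVec, hHiH, Matrix.one_mulVec]
  obtain ⟨π, hπu, hπv⟩ := exists_kfun_pair hK u v hω
  have hdec : ∀ k : ↥K, ∃ a b : F,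
      (k : Matrix (Fin n) (Fin n) F) *ᵥ u = a • u + b • ωu := by
    intro k
    obtain ⟨a, b, hab⟩ := fs_two_decomp_mulVec hK ω hωs k
    exact ⟨a, b, by rw [hωu]; exact hab u⟩
  -- `u` and `ω u` are linearly independent over `F`
  have hind : ∀ α β : F, α • u + β • ωu = 0 → α = 0 ∧ β = 0 := by
    intro α β hαβ
    have hβ : β = 0 := by
      by_contra hβ
      have h1 : ωu = (-(β⁻¹ * α)) • u := by
        have h2 : β • ωu = -(α • u) := eq_neg_of_add_eq_zero_right hαβ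
        calc ωu = β⁻¹ • (β • ωu) := by rw [smul_smul, inv_mul_cancel₀ hβ, one_smul]
          _ = (-(β⁻¹ * α)) • u := by rw [h2, smul_neg, smul_smul, neg_smul]
      apply hωs (-(β⁻¹ * α))
      have h3 : ((ω - (-(β⁻¹ * α)) • (1 : ↥K) : ↥K) : Matrix (Fin n) (Fin n) F) = 0 := by
        apply fs_eq_zero hK (ω - (-(β⁻¹ * α)) • (1 : ↥K)).2 hu
        rw [Subalgebra.coe_sub, Subalgebra.coe_smul, OneMemClass.coe_one, Matrix.sub_mulVec,
          Matrix.smul_mulVec, Matrix.one_mulVec, ← hωu, h1, sub_self]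
      exact sub_eq_zero.mp (Subtype.ext h3)
    rw [hβ, zero_smul, add_zero] at hαβ
    rcases smul_eq_zero.mp hαβ with h1 | h1
    · exact ⟨h1, hβ⟩
    · exact absurd h1 hu
  obtain ⟨a₀, b₀, hab₀⟩ := fs_two_decomp hK ω hωs (ω * ω)
  have hωωu : (ω : Matrix (Fin n) (Fin n) F) *ᵥ ωu = a₀ • u + b₀ • ωu := by
    rw [hωu, Matrix.mulVec_mulVec, ← Subalgebra.coe_mul, hab₀, Subalgebra.coe_add,
      Subalgebra.coe_smul, Subalgebra.coe_smul, OneMemClass.coe_one, Matrix.add_mulVec,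
      Matrix.smul_mulVec, Matrix.smul_mulVec, Matrix.one_mulVec]
  obtain ⟨c, hc0, hcb⟩ : ∃ c : F, c ≠ 0 ∧ c ≠ b₀ := by
    by_contra hcon
    push Not at hcon
    have hsub : (Finset.univ : Finset F) ⊆ {0, b₀} := by
      intro c _
      by_cases hc : c = 0
      · rw [hc]; exact Finset.mem_insert_self _ _
      · rw [hcon c hc]; exact Finset.mem_insert_of_mem (Finset.mem_singleton_self _)
    have h1 := Finset.card_le_card hsub
    rw [Finset.card_univ] at h1
    have h2 : ({0, b₀} : Finset F).card ≤ 2 := Finset.card_le_two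
    omega
  have hπc : (π.smul hK.comm (c • (1 : ↥K))) u = 0 := by
    rw [KFun.smul_apply, hπu, mul_zero]
  obtain ⟨z, hz⟩ : ∃ z : GL (Fin n) F,
      z = h⁻¹ * ktG u (π.smul hK.comm (c • (1 : ↥K))) hπc * h := ⟨_, rfl⟩
  have hzM : z ∈ M := by
    rw [hz]
    exact M.mul_mem (M.mul_mem (M.inv_mem hh) (hM (ktG_mem _ _ _))) hh
  have hzv : ∀ a b : F, (z : Matrix (Fin n) (Fin n) F) *ᵥ (a • u + b • ωu) =
      (a + c * b) • u + b • ωu := by
    intro a b
    have e : ((c • (1 : ↥K) * b • (1 : ↥K) : ↥K) : Matrix (Fin n) (Fin n) F) *ᵥ u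
        = (c * b) • u := by
      rw [Subalgebra.coe_mul, Subalgebra.coe_smul, Subalgebra.coe_smul, OneMemClass.coe_one,
        Matrix.smul_mul, Matrix.one_mul, smul_smul, Matrix.smul_mulVec, Matrix.one_mulVec]
    rw [hz, Units.val_mul, Units.val_mul, ← hH, ← hHi, ← Matrix.mulVec_mulVec,
      ← Matrix.mulVec_mulVec, Matrix.mulVec_add, Matrix.mulVec_smul, Matrix.mulVec_smul, hhu,
      ← hv, ktG_mulVec, KFun.smul_apply, π.map_add, π.map_smul, π.map_smul, hπu, hπv, smul_zero,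
      zero_add, e, Matrix.mulVec_add, Matrix.mulVec_add, Matrix.mulVec_smul, Matrix.mulVec_smul,
      Matrix.mulVec_smul, hHiu, hHiv, add_smul]
    abel
  have hzu : (z : Matrix (Fin n) (Fin n) F) *ᵥ u = u := by
    have h1 := hzv 1 0
    rw [one_smul, zero_smul, add_zero, mul_zero, add_zero (1 : F), one_smul, add_zero] at h1
    exact h1
  have hzωu : (z : Matrix (Fin n) (Fin n) F) *ᵥ ωu = c • u + ωu := by
    have h1 := hzv 0 1
    rw [zero_smul, one_smul, zero_add ωu, mul_one, zero_add c] at h1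
    exact h1
  refine ⟨z, hzM, ?_, ?_⟩
  · intro k
    obtain ⟨a, b, hab⟩ := hdec k
    refine ⟨(a + c * b) • (1 : ↥K) + b • ω, ?_⟩
    rw [hab, hzv, Subalgebra.coe_add, Subalgebra.coe_smul, Subalgebra.coe_smul,
      OneMemClass.coe_one, Matrix.add_mulVec, Matrix.smul_mulVec, Matrix.smul_mulVec,
      Matrix.one_mulVec, ← hωu]
  · intro hN
    obtain ⟨k', hk'⟩ := hN ω
    have h1 := hk' 1
    have h2 := hk' ω
    rw [OneMemClass.coe_one, Matrix.one_mulVec, ← hωu, hzωu, hzu] at h1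
    have h3 : (k' : Matrix (Fin n) (Fin n) F) *ᵥ ωu = c • ωu + (a₀ • u + b₀ • ωu) := by
      rw [hωu, Matrix.mulVec_mulVec, hK.comm k' k'.2 ω ω.2, ← Matrix.mulVec_mulVec, ← h1,
        Matrix.mulVec_add, Matrix.mulVec_smul, ← hωu, hωωu]
    rw [← hωu, hωωu, hzv, hzωu, Matrix.mulVec_add, Matrix.mulVec_smul, ← h1, h3] at h2
    have h4 : (c * b₀ - c * c) • u + (-(c + c)) • ωu = 0 := by
      linear_combination (norm := module) h2
    obtain ⟨h5, -⟩ := hind _ _ h4
    have h6 : c * (b₀ - c) = 0 := by rw [mul_sub]; exact h5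
    rcases mul_eq_zero.mp h6 with h7 | h7
    · exact hc0 h7
    · exact hcb (sub_eq_zero.mp h7).symm

end Cfsg.Agent.Lib.Helper71.KLinR2
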